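import Cfsg.Agent.R2.Spec.X1.E7.Small
import Cfsg.Agent.R2.Spec.X1.E7.Sp
import Cfsg.Agent.R2.Spec.X1.E7.Orth
import Cfsg.Agent.R2.Spec.X1.E7.Lin
import Cfsg.Agent.R2.Spec.X1.E7.RowE7
import Cfsg.Agent.R2.Spec.X1.E7.RowE8
import Cfsg.Agent.R2.Spec.X1.E7.Own

/-!
# `E₇(q)`, `q` odd: the identification of `S` (helper13, S3435; after helper962, S3482)
-/

set_option autoImplicit false

namespace Cfsg.Agent.R2.Spec.X1.E7

open Cfsg Cfsg.Lie
open Cfsg.Agent.H436 Cfsg.Agent.OrdDiv Cfsg.Agent.H962.E7 Cfsg.Agent.H791.E7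

universe u v

/-- **the rows** -/
theorem row_all {s : Bool} {p k : ℕ} {S : Type u} [Group S] [Finite S] (R : RowS s p k S) (g : Grp)
    (hg : IsNamed g S) : g = .e7 (p ^ k) := by
  by_cases h : p ∣ fld g ∧ fld g ≠ 0
  · exact row_own R hg h.1 h.2
  exfalso
  have hv : ∀ q : ℕ, fld g = q → IsPrimePow q → ¬ p ∣ q := by
    intro q hq hpp hd
    exact h ⟨hq ▸ hd, hq ▸ hpp.pos.ne'⟩
  have hcond := hg.cond
  cases g with
  | alt n => exact row_alt R hg
  | psl n q => exact row_psl R hg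
  | psp m q => exact row_psp R hg (hv q rfl hcond.2.2)
  | psu n q => exact row_psu R hg
  | oodd m q => exact row_oodd R hg (hv q rfl hcond.2.2)
  | oplus m q => exact row_oplus R hg
  | ominus m q => exact row_ominus R hg
  | g2 q => exact row_g2 R hg
  | f4 q => exact row_f4 R hg
  | e6 q => exact row_e6 R hg
  | e7 q => exact row_e7 R hg (hv q rfl hcond)
  | e8 q => exact row_e8 R hg
  | te6 q => exact row_te6 R hg
  | td4 q => exact row_td4 R hg
  | sz q => exact row_sz R hg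
  | ree q => exact row_ree R hg
  | tf4 q => exact row_tf4 R hg
  | tits => exact row_tits R hg
  | _ => exact row_sporadic R hg (by decide)

end Cfsg.Agent.R2.Spec.X1.E7
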