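import Cfsg.Agent.H962.E7.Rows
import Cfsg.Agent.R2.Spec.X1.E7.Rows
import Cfsg.Agent.R2.Spec.X1.E7.Frame
import Cfsg.Agent.R2.Spec.X1.Gen

/-!
# `E₇(q)`: the solvable subgroup and the simple section (helper13, S3435; after helper962, S3482)
-/

set_option autoImplicit false

namespace Cfsg.Agent.R2.Spec.X1.E7

open Subgroup Cfsg Cfsg.Lie
open Cfsg.Agent.H436 Cfsg.Agent.H420.QR Cfsg.Agent.OrdDiv
open Cfsg.Agent.H824.E7

universe u v

/-- the facts on `L`, `q` odd -/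
theorem exists_LS (F : Type v) [Field F] [Fintype F] (p : ℕ) [CharP F p] (hp : p ≠ 2) :
    ∃ (s : Bool) (k : ℕ), Fintype.card F = p ^ k ∧ LS s p k ↥(chevE7.group F) := by
  have hpp : Fact p.Prime := ⟨CharP.char_is_prime F p⟩
  obtain ⟨n, -, hn⟩ := FiniteField.card F p
  have hodd : p ^ (n : ℕ) % 2 = 1 := by
    have h1 : p % 2 = 1 := (hpp.out.eq_two_or_odd).resolve_left hp
    simp [Nat.pow_mod, h1]
  obtain ⟨s, hs⟩ : ∃ s : Bool, p ^ (n : ℕ) % 4 = md s := by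
    have h4 : p ^ (n : ℕ) % 4 = 1 ∨ p ^ (n : ℕ) % 4 = 3 := by omega
    rcases h4 with h | h
    · exact ⟨true, h⟩
    · exact ⟨false, h⟩
  refine ⟨s, n, hn, hpp.out, n.2, hp, hs, hn ▸ Facts.tor_L F, hn ▸ Facts.nad_L F, ?_, ?_, ?_⟩
  · intro r hr hd
    rcases Facts.pi_L F r hr hd with h1 | h1
    · left
      rw [hn] at h1
      exact (Nat.prime_dvd_prime_iff_eq hr hpp.out).1 (hr.dvd_of_dvd_pow h1)
    · right
      rwa [hn] at h1
  · intro i hi r hr
    exact Facts.dvd_card F hi (hn ▸ hr)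
  · intro i hi
    have := Facts.elt_L F hi
    rwa [hn] at this

/-- **The solvable subgroup and the simple section.** -/
theorem preQR_E7 (F : Type v) [Field F] [Fintype F] : PreQR.{u, v} ↥(chevE7.group F) := by
  intro G _ _ hω
  obtain ⟨p, hchar⟩ := CharP.exists F
  have hpp : Fact p.Prime := ⟨CharP.char_is_prime F p⟩
  have hfin : Finite ↥(chevE7.group F) := inferInstance
  have hω' : ∀ m : ℕ, (∃ g : G, orderOf g = m) ↔ ∃ y : ↥(chevE7.group F), orderOf y = m := fun m => by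
    change m ∈ Set.range (orderOf : G → ℕ) ↔ m ∈ Set.range (orderOf : ↥(chevE7.group F) → ℕ)
    rw [hω]
  by_cases h2 : p = 2
  · obtain ⟨k, hF, hL⟩ := H962.E7.exists_LF F p (Or.inl h2)
    have hq : 2 ≤ p ^ k := hL.two_le
    have heven : ∀ i ∈ H962.E7.C4, ¬ 2 ∣ H962.E7.TT (p ^ k) i := by
      intro i hi
      refine H627.E7.odd_TT_even hi ?_ hq
      have hk := hL.hk
      rw [h2]
      obtain ⟨m, rfl⟩ : ∃ m, k = m + 1 := ⟨k - 1, by omega⟩
      rw [pow_succ, Nat.mul_mod_left]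
    obtain ⟨K, hK, S, hS, R, hR⟩ := H962.E7.frame hL (fun i hi r hr hd => H334.E7.Lay.nn_prim hq hi hr hd)
      (fun i hi => heven i (by
        have hi' : i = 14 ∨ i = 18 := by simpa using hi
        rcases hi' with rfl | rfl <;> decide)) (fun _ => heven) (G := G) hω'
    obtain ⟨g, hg⟩ := R.named
    obtain rfl := H962.E7.row_all hR g hg
    obtain ⟨F', _, _, hF', ⟨e⟩⟩ := hg.real
    obtain ⟨e'⟩ := H902.Iso.chev_congr (FiniteField.ringEquivOfCardEq (hF'.trans hF.symm)) chevE7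
    exact ⟨K, hK, R.solv, S, hS, ⟨e.trans e'⟩⟩
  · obtain ⟨s, k, hF, hL⟩ := exists_LS F p h2
    obtain ⟨K, hK, S, hS, R, hR⟩ := frame hL (G := G) hω'
    obtain ⟨g, hg⟩ := R.named
    obtain rfl := row_all hR g hg
    obtain ⟨F', _, _, hF', ⟨e⟩⟩ := hg.real
    obtain ⟨e'⟩ := H902.Iso.chev_congr (FiniteField.ringEquivOfCardEq (hF'.trans hF.symm)) chevE7
    exact ⟨K, hK, R.solv, S, hS, ⟨e.trans e'⟩⟩

end Cfsg.Agent.R2.Spec.X1.E7
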